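import Mathlib.Tactic
import Mathlib.NumberTheory.Padics.PadicVal.Basic
import Mathlib.Data.Nat.Prime.Factorial

/-! Numerics for the largest nilpotent subgroups of `S_n` (`F`) and `A_n` (`E`). -/

set_option autoImplicit false

namespace Cfsg.Agent.SymN

/-- The 2-adic valuation of `n!`. -/
def v (n : ℕ) : ℕ := padicValNat 2 n.factorial

theorem v_two_mul (n : ℕ) : v (2 * n) = v n + n := padicValNat_factorial_mul n

theorem v_two_mul_add_one (n : ℕ) : v (2 * n + 1) = v n + n :=
  (padicValNat_factorial_mul_add n (by norm_num)).trans (v_two_mul n)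

theorem v_super (a b : ℕ) : v a + v b ≤ v (a + b) := by
  unfold v
  rw [← padicValNat.mul a.factorial_ne_zero b.factorial_ne_zero]
  obtain ⟨k, hk⟩ := Nat.factorial_mul_factorial_dvd_factorial_add a b
  have hk0 : k ≠ 0 := fun h => (a + b).factorial_ne_zero (by rw [hk, h, mul_zero])
  rw [hk, padicValNat.mul (mul_ne_zero a.factorial_ne_zero b.factorial_ne_zero) hk0]
  omega

theorem v_mono {a b : ℕ} (h : a ≤ b) : v a ≤ v b := by
  obtain ⟨k, rfl⟩ := Nat.exists_eq_add_of_le h
  have := v_super a k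
  omega

theorem v0 : v 0 = 0 := by simp [v]
theorem v1 : v 1 = 0 := by simp [v]
theorem v2 : v 2 = 1 := by simpa [v1] using v_two_mul 1
theorem v3 : v 3 = 1 := by simpa [v1] using v_two_mul_add_one 1
theorem v4 : v 4 = 3 := by simpa [v2] using v_two_mul 2

theorem v_four (k : ℕ) : v (4 * k) = v k + 3 * k ∧ v (4 * k + 1) = v k + 3 * k ∧
    v (4 * k + 2) = v k + 3 * k + 1 ∧ v (4 * k + 3) = v k + 3 * k + 1 := by
  have h1 := v_two_mul k
  have h2 := v_two_mul_add_one k
  have h3 := v_two_mul (2 * k)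
  have h4 := v_two_mul_add_one (2 * k)
  have h5 := v_two_mul (2 * k + 1)
  have h6 := v_two_mul_add_one (2 * k + 1)
  rw [show 2 * (2 * k) = 4 * k by ring] at h3 h4
  rw [show 2 * (2 * k + 1) = 4 * k + 2 by ring] at h5 h6
  refine ⟨by omega, by omega, by omega, ?_⟩
  rw [show 4 * k + 3 = 4 * k + 2 + 1 by ring]
  omega

def c : ℕ → ℕ
  | 2 => 2
  | 3 => 3
  | _ => 1

def U (k : ℕ) : ℕ := 2 ^ (v k + 3 * k)

def F (n : ℕ) : ℕ := U (n / 4) * c (n % 4)

def E (n : ℕ) : ℕ :=
  if n ≤ 1 then 1 else if n = 3 then 3 else if n = 5 then 5 else if n = 6 then 9 else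
    if n = 9 then 81 else F n / 2

theorem F_four (k r : ℕ) (hr : r < 4) : F (4 * k + r) = U k * c r := by
  unfold F
  rw [show (4 * k + r) / 4 = k by omega, show (4 * k + r) % 4 = r by omega]

theorem U_pos (k : ℕ) : 0 < U k := by unfold U; positivity

theorem U_super (k l : ℕ) : U k * U l ≤ U (k + l) := by
  unfold U
  rw [← pow_add]
  have := v_super k l
  exact Nat.pow_le_pow_right two_pos (by omega)

theorem U0 : U 0 = 1 := by simp [U, v0]
theorem U1 : U 1 = 8 := by simp [U, v1]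
theorem U2 : U 2 = 128 := by simp [U, v2]
theorem U3 : U 3 = 1024 := by simp [U, v3]
theorem U4 : U 4 = 32768 := by simp [U, v4]

theorem U_succ (k : ℕ) : 8 * U k ≤ U (k + 1) := by
  have := U_super k 1
  rw [U1] at this
  omega

theorem div4 (n : ℕ) : ∃ k r, r < 4 ∧ n = 4 * k + r := ⟨n / 4, n % 4, by omega, by omega⟩

theorem F_super (a b : ℕ) : F a * F b ≤ F (a + b) := by
  obtain ⟨k, r, hr, rfl⟩ := div4 a
  obtain ⟨l, s, hs, rfl⟩ := div4 b
  rw [F_four k r hr, F_four l s hs]
  have h1 := U_super k l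
  have h2 := U_succ (k + l)
  by_cases h : r + s < 4
  · rw [show 4 * k + r + (4 * l + s) = 4 * (k + l) + (r + s) by ring, F_four _ _ h,
      mul_mul_mul_comm]
    refine Nat.mul_le_mul h1 ?_
    interval_cases r <;> interval_cases s <;> first | omega | decide
  · rw [show 4 * k + r + (4 * l + s) = 4 * (k + l + 1) + (r + s - 4) by omega,
      F_four _ _ (by omega), mul_mul_mul_comm]
    have h3 : c r * c s ≤ 8 * c (r + s - 4) := by
      interval_cases r <;> interval_cases s <;> first | omega | decide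
    calc U k * U l * (c r * c s) ≤ U (k + l) * (8 * c (r + s - 4)) := Nat.mul_le_mul h1 h3
      _ = 8 * U (k + l) * c (r + s - 4) := by ring
      _ ≤ _ := Nat.mul_le_mul_right _ h2

theorem F_pos (n : ℕ) : 0 < F n := by
  obtain ⟨k, r, hr, rfl⟩ := div4 n
  rw [F_four k r hr]
  refine Nat.mul_pos (U_pos k) ?_
  interval_cases r <;> decide

theorem F_mono {a b : ℕ} (h : a ≤ b) : F a ≤ F b := by
  obtain ⟨k, rfl⟩ := Nat.exists_eq_add_of_le h
  exact (Nat.le_mul_of_pos_right _ (F_pos k)).trans (F_super a k)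

theorem F_small {n : ℕ} (h : n < 20) : F n = [1, 1, 2, 3, 8, 8, 16, 24, 128, 128, 256, 384, 1024,
    1024, 2048, 3072, 32768, 32768, 65536, 98304].getD n 0 := by
  interval_cases n <;> simp [F, U0, U1, U2, U3, U4, c]

theorem E_small {n : ℕ} (h : n < 20) : E n = [1, 1, 1, 3, 4, 5, 9, 12, 64, 81, 128, 192, 512,
    512, 1024, 1536, 16384, 16384, 32768, 49152].getD n 0 := by
  unfold E
  rw [F_small h]
  interval_cases n <;> rfl

theorem F_of_ne {n : ℕ} (h : n % 4 ≠ 3) : F n = 2 ^ v n := by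
  obtain ⟨k, r, hr, rfl⟩ := div4 n
  obtain ⟨h0, h1, h2, -⟩ := v_four k
  rw [F_four k r hr, U]
  interval_cases r
  · rw [add_zero, h0]; exact mul_one _
  · rw [h1]; exact mul_one _
  · rw [h2]; rfl
  · omega

theorem F_of_eq {n : ℕ} (h : n % 4 = 3) : F n = 3 * 2 ^ v (n - 3) := by
  obtain ⟨k, rfl⟩ : ∃ k, n = 4 * k + 3 := ⟨n / 4, by omega⟩
  rw [F_four k 3 (by norm_num), U, Nat.add_sub_cancel, (v_four k).1, mul_comm]; rfl

theorem pow_v_le (n : ℕ) : 2 ^ v n ≤ F n := by
  by_cases h : n % 4 = 3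
  · obtain ⟨k, rfl⟩ : ∃ k, n = 4 * k + 3 := ⟨n / 4, by omega⟩
    rw [F_four k 3 (by norm_num), U, (v_four k).2.2.2, pow_succ]
    exact Nat.mul_le_mul_left _ (by decide)
  · exact (F_of_ne h).ge

theorem two_mul_E {n : ℕ} (h : 2 ≤ n) (h3 : n ≠ 3) (h5 : n ≠ 5) (h6 : n ≠ 6) (h9 : n ≠ 9) :
    2 * E n = F n := by
  unfold E
  rw [if_neg (by omega), if_neg h3, if_neg h5, if_neg h6, if_neg h9]
  refine Nat.mul_div_cancel' ?_
  obtain ⟨k, r, hr, rfl⟩ := div4 n
  rw [F_four k r hr]
  rcases k with _ | k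
  · obtain rfl : r = 2 := by omega
    exact dvd_mul_left _ _
  · exact Dvd.dvd.mul_right (dvd_pow_self 2 (by omega)) _

theorem E_cases (n : ℕ) : n < 10 ∨ 2 * E n = F n := by
  by_cases h : n < 10
  · exact Or.inl h
  · exact Or.inr (two_mul_E (by omega) (by omega) (by omega) (by omega) (by omega))

theorem E_le_F (n : ℕ) : E n ≤ F n := by
  rcases E_cases n with h | h
  · rw [E_small (by omega), F_small (by omega)]
    interval_cases n <;> decide
  · omega

theorem F_le_two_E (n : ℕ) : F n ≤ 2 * E n := by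
  rcases E_cases n with h | h
  · rw [E_small (by omega), F_small (by omega)]
    interval_cases n <;> decide
  · omega

theorem E_super (a b : ℕ) : E a * E b ≤ E (a + b) := by
  have key : ∀ a b, 2 * E b = F b → E a * E b ≤ E (a + b) := fun a b h => by
    have h1 := F_super a b
    have h2 := F_le_two_E (a + b)
    have h3 := Nat.mul_le_mul_right (F b) (E_le_F a)
    rw [← h] at h3 h1
    nlinarith
  rcases E_cases b with hb | hb
  · rcases E_cases a with ha | ha
    · rw [E_small (by omega), E_small (by omega), E_small (by omega)]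
      interval_cases a <;> interval_cases b <;> decide
    · rw [mul_comm, add_comm]; exact key b a ha
  · exact key a b hb

theorem U_ge (k : ℕ) : 2 * 9 ^ (k + 4) ≤ U (k + 4) ∧ 2 * 9 ^ (k + 5) ≤ U (k + 5) := by
  induction k with
  | zero =>
    have := U_succ 4
    rw [U4] at this
    exact ⟨by rw [U4]; norm_num, le_trans (by norm_num) this⟩
  | succ k ih =>
    refine ⟨ih.2, ?_⟩
    have := U_super (k + 4) 2
    rw [U2] at this
    rw [show k + 1 + 5 = k + 4 + 2 by ring, pow_add]
    omega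

theorem sq_le_three_pow {p : ℕ} (h : 3 ≤ p) : p ^ 2 ≤ 3 ^ (p - 1) := by
  induction p, h using Nat.le_induction with
  | base => norm_num
  | succ p hp ih =>
    obtain ⟨q, rfl⟩ : ∃ q, p = q + 1 := ⟨p - 1, by omega⟩
    rw [Nat.add_sub_cancel] at ih ⊢
    rw [pow_succ 3]
    nlinarith

theorem odd_pow_le {p a n : ℕ} (hp : p.Prime) (h2 : p ≠ 2) (h : p ^ a ∣ n.factorial) :
    p ^ a ≤ E n := by
  have : Fact p.Prime := ⟨hp⟩
  have h3 : 3 ≤ p := by have := hp.two_le; omega
  rcases Nat.eq_zero_or_pos a with rfl | ha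
  · have := F_le_two_E n
    have := F_pos n
    rw [pow_zero]; omega
  have hpn : p ≤ n := hp.dvd_factorial.mp ((dvd_pow_self p ha.ne').trans h)
  have h4 : (p - 1) * a < n := lt_of_le_of_lt (Nat.mul_le_mul_left _
    ((padicValNat_dvd_iff_le n.factorial_ne_zero).mp h))
    (sub_one_mul_padicValNat_factorial_lt_of_ne_zero p (by omega))
  by_cases hn : n < 16
  · have h5 : a < 8 := by
      have : 2 * a ≤ (p - 1) * a := Nat.mul_le_mul_right _ (by omega)
      omega
    rw [E_small (by omega)]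
    have key : ∀ n < 16, ∀ p ∈ [3, 5, 7, 11, 13], ∀ a < 8, p ^ a ∣ n.factorial →
        p ^ a ≤ [1, 1, 1, 3, 4, 5, 9, 12, 64, 81, 128, 192, 512,
    512, 1024, 1536, 16384, 16384, 32768, 49152].getD n 0 := by decide +kernel
    refine key n hn p ?_ a h5 h
    have : p < 16 := by omega
    interval_cases p <;> first | decide | exact absurd hp (by norm_num)
  · obtain ⟨k, r, hr, rfl⟩ := div4 n
    obtain ⟨j, rfl⟩ : ∃ j, k = j + 4 := ⟨k - 4, by omega⟩
    have h5 := two_mul_E (n := 4 * (j + 4) + r) (by omega) (by omega) (by omega) (by omega)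
      (by omega)
    rw [F_four _ _ hr] at h5
    have h6 := (U_ge j).1
    have h7 : (p ^ a) ^ 2 ≤ 3 ^ (4 * (j + 4) + r - 1) := by
      rw [← pow_mul, mul_comm a, pow_mul]
      refine (Nat.pow_le_pow_left (sq_le_three_pow h3) a).trans ?_
      rw [← pow_mul]
      exact Nat.pow_le_pow_right (by norm_num) (by omega)
    have h8 : 3 ^ (4 * (j + 4) + r - 1) ≤ (9 ^ (j + 4) * c r) ^ 2 := by
      rw [mul_pow, ← pow_mul, show (9 : ℕ) = 3 ^ 2 by norm_num, ← pow_mul,
        show 2 * ((j + 4) * 2) = 4 * (j + 4) by ring]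
      interval_cases r
      · exact (Nat.pow_le_pow_right (by norm_num) (by omega)).trans
          (Nat.le_mul_of_pos_right _ (by decide))
      · exact Nat.le_mul_of_pos_right _ (by decide)
      · rw [show 4 * (j + 4) + 2 - 1 = 4 * (j + 4) + 1 by omega, pow_succ]
        exact Nat.mul_le_mul_left _ (by decide)
      · rw [show 4 * (j + 4) + 3 - 1 = 4 * (j + 4) + 2 by omega, pow_add]
        exact Nat.mul_le_mul_left _ (by decide)
    have h9 : p ^ a ≤ 9 ^ (j + 4) * c r := (Nat.pow_le_pow_iff_left two_ne_zero).mp (h7.trans h8)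
    have := Nat.mul_le_mul_right (c r) h6
    nlinarith

theorem two_pow_le_F {a n : ℕ} (h : 2 ^ a ∣ n.factorial) : 2 ^ a ≤ F n :=
  (Nat.pow_le_pow_right two_pos ((padicValNat_dvd_iff_le n.factorial_ne_zero).mp h)).trans
    (pow_v_le n)

theorem trans_le {a b n : ℕ} (ha : 2 ≤ a) (hb : 2 ≤ b) (hc : a.Coprime b) (h : a * b ≤ n) :
    F a * F b ≤ E n := by
  by_cases h1 : a + b + 2 ≤ n
  · have h2 := F_super (a + b) 2
    have h3 := F_mono h1
    have h4 := F_super a b
    have h5 := F_le_two_E n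
    rw [F_small (n := 2) (by norm_num)] at h2
    simp only [List.getD_cons_succ, List.getD_cons_zero] at h2
    omega
  · have h2 : a ≤ 3 := by nlinarith
    have h3 : b ≤ 3 := by nlinarith
    have h4 : n < 8 := by omega
    rw [F_small (by omega), F_small (by omega), E_small (by omega)]
    interval_cases a <;> interval_cases b <;> first | (exact absurd hc (by decide)) | skip
    all_goals (interval_cases n <;> first | omega | decide)

theorem v_lt {n j : ℕ} (hn : n % 4 = 3) (hj : 2 ≤ j) (h : 3 * j ≤ n) :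
    v (n - 3 * j) + v j + 2 ≤ v (n - 3) := by
  obtain ⟨k, rfl⟩ : ∃ k, n = 4 * (k + 1) + 3 := ⟨n / 4 - 1, by omega⟩
  have h1 := v_super (4 * (k + 1) + 3 - 3 * j) j
  have h2 : v (4 * (k + 1) + 3 - 3 * j + j) ≤ v (4 * k + 3) := v_mono (by omega)
  have h3 := (v_four k).2.2.2
  have h4 := (v_four (k + 1)).1
  have h5 := v_mono (Nat.le_succ k)
  rw [Nat.add_sub_cancel]
  simp only [Nat.succ_eq_add_one] at h5
  omega

end Cfsg.Agent.SymN
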