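import Cfsg.Agent.SymN.Ab
import Cfsg.Agent.SymN.NilNum
import Cfsg.Agent.Solv.Fitting
import Mathlib.GroupTheory.GroupAction.Blocks
import Mathlib.GroupTheory.Perm.Centralizer
import Mathlib.GroupTheory.NoncommCoprod
import Mathlib.GroupTheory.GroupAction.Transitive

/-! The largest nilpotent subgroups of `S_n` and `A_n`. -/

set_option autoImplicit false

namespace Cfsg.Agent.SymN

open Equiv Equiv.Perm Subgroup Pointwise

theorem faithful_orbit {G α : Type*} [Group G] [MulAction G α] [FaithfulSMul G α]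
    [MulAction.IsPretransitive G α] (P R : Subgroup G) [R.Normal] (hsup : R ⊔ P = ⊤)
    (hcomm : ∀ u ∈ P, ∀ r ∈ R, u * r = r * u) (x : α) :
    Function.Injective (MulAction.toPermHom P (MulAction.orbit P x)) := by
  rw [injective_iff_map_eq_one]
  intro u hu
  refine Subtype.ext (FaithfulSMul.eq_of_smul_eq_smul (α := α) fun y => ?_)
  obtain ⟨k, rfl⟩ := MulAction.exists_smul_eq G x y
  have hk : k ∈ ((R ⊔ P : Subgroup G) : Set G) := hsup ▸ mem_top k
  rw [normal_mul] at hk
  obtain ⟨r, hr, w, hw, rfl⟩ := hk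
  have h1 : (u : G) • w • x = w • x :=
    congrArg Subtype.val (congrArg (fun s : Perm (MulAction.orbit P x) =>
      s ⟨w • x, MulAction.mem_orbit x (⟨w, hw⟩ : P)⟩) hu)
  show (u : G) • (r * w) • x = (1 : G) • (r * w) • x
  rw [one_smul, mul_smul, smul_smul (u : G) r, hcomm u u.2 r hr, mul_smul, h1]

theorem card_dvd_factorial {α : Type*} [Fintype α] [DecidableEq α] (N : Subgroup (Perm α)) :
    Nat.card N ∣ (Fintype.card α).factorial := by
  rw [← Nat.card_eq_fintype_card, ← Nat.card_perm]
  exact card_subgroup_dvd_card N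

theorem pgroup_le {α : Type*} [Fintype α] [DecidableEq α] (N : Subgroup (Perm α)) {p : ℕ}
    [hp : Fact p.Prime] (h : IsPGroup p N) : Nat.card N ≤ F (Fintype.card α) ∧
      (Even' N → Nat.card N ≤ E (Fintype.card α)) := by
  obtain ⟨a, ha⟩ := IsPGroup.iff_card.mp h
  have hd := card_dvd_factorial N
  rw [ha] at hd ⊢
  by_cases h2 : p = 2
  · subst h2
    refine ⟨two_pow_le_F hd, fun hE => ?_⟩
    have h3 := F_le_two_E (Fintype.card α)
    by_cases h1 : 2 ≤ Fintype.card α
    · have h4 := card_dvd_of_le (le_alt hE)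
      rw [ha] at h4
      have h5 := Nat.mul_dvd_mul_left 2 h4
      rw [two_mul_card_alt h1, ← pow_succ'] at h5
      have := two_pow_le_F h5
      rw [pow_succ'] at this
      omega
    · have h4 : (Fintype.card α).factorial = 1 := Nat.factorial_eq_one.mpr (by omega)
      rw [h4, Nat.dvd_one] at hd
      have := F_pos (Fintype.card α)
      omega
  · have := odd_pow_le hp.out h2 hd
    exact ⟨this.trans (E_le_F _), fun _ => this⟩

theorem nil_range {G H : Type*} [Group G] [Group H] [Group.IsNilpotent G] (φ : G →* H) :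
    Group.IsNilpotent φ.range :=
  Group.nilpotent_of_surjective φ.rangeRestrict φ.rangeRestrict_surjective

theorem nil_le (n : ℕ) : ∀ (α : Type) [Fintype α] [DecidableEq α], Fintype.card α = n →
    ∀ N : Subgroup (Perm α), Group.IsNilpotent N →
      Nat.card N ≤ F n ∧ (Even' N → Nat.card N ≤ E n) := by
  induction n using Nat.strong_induction_on with
  | _ n ih =>
    intro α _ _ hn N hN
    classical
    subst hn
    by_cases h1 : Nat.card N = 1
    · exact pgroup_le N (p := 2) (IsPGroup.of_card (n := 0) h1)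
    obtain ⟨p, hp, hpN⟩ := Nat.exists_prime_and_dvd h1
    have : Fact p.Prime := ⟨hp⟩
    have hsup := Solv.pCore_sup_pPrimeCore_eq_top (G := N) (p := p)
    by_cases hR : pPrimeCore p N = ⊥
    · rw [hR, sup_bot_eq] at hsup
      exact pgroup_le N ((hsup ▸ Solv.isPGroup_pCore p N).of_equiv topEquiv)
    have hpos : 0 < Fintype.card α := Nat.pos_of_ne_zero fun h => h1
      (le_antisymm (card_le_one_of_isEmpty h N) Nat.card_pos)
    obtain ⟨x⟩ : Nonempty α := Fintype.card_pos_iff.mp hpos
    have h2 := card_orbit_pos N x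
    have h3 := card_add (fun y => y ∈ MulAction.orbit N x)
    by_cases htr : ∀ y, y ∈ MulAction.orbit N x
    · have : MulAction.IsPretransitive N α :=
        (MulAction.isPretransitive_iff_base x).mpr fun y => htr y
      have hcop : (Nat.card (pCore p N)).Coprime (Nat.card (pPrimeCore p N)) := by
        obtain ⟨a, ha⟩ := IsPGroup.iff_card.mp (Solv.isPGroup_pCore p N)
        rw [ha]
        exact (Solv.coprime_card_pPrimeCore p N).symm.pow_left a
      have hcard : Nat.card N = Nat.card (pCore p N) * Nat.card (pPrimeCore p N) := by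
        rw [← Solv.card_sup_of_coprime le_normalizer_of_normal hcop, hsup, card_top]
      have hP : pCore p N ≠ ⊥ := fun h => by
        rw [h, card_bot, one_mul] at hcard
        exact Solv.not_dvd_card_pPrimeCore p N (hcard ▸ hpN)
      have hc : ∀ u ∈ pCore p N, ∀ r ∈ pPrimeCore p N, u * r = r * u := fun u hu r hr =>
        (Solv.pCore_le_centralizer_pPrimeCore hu r hr).symm
      have i1 := faithful_orbit _ _ (by rw [sup_comm]; exact hsup) hc x
      have i2 := faithful_orbit _ _ hsup (fun u hu r hr => (hc r hr u hu).symm) x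
      have key : ∀ Q : Subgroup N, Q.Normal → Q ≠ ⊥ →
          Function.Injective (MulAction.toPermHom Q (MulAction.orbit Q x)) →
          2 ≤ (MulAction.orbit Q x).ncard ∧ (MulAction.orbit Q x).ncard ∣ Nat.card Q ∧
          (MulAction.orbit Q x).ncard ∣ Fintype.card α ∧
          ((MulAction.orbit Q x).ncard < Fintype.card α →
            Nat.card Q ≤ F (MulAction.orbit Q x).ncard) := by
        intro Q _ hQ hi
        have e : Fintype.card (MulAction.orbit Q x) = (MulAction.orbit Q x).ncard := by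
          rw [← Nat.card_eq_fintype_card, Nat.card_coe_set_eq]
        have e2 := (MonoidHom.ofInjective hi).toEquiv
        refine ⟨?_, ?_, ?_, fun hlt => ?_⟩
        · by_contra hlt
          have h5 := card_dvd_factorial (MulAction.toPermHom Q (MulAction.orbit Q x)).range
          rw [e, Nat.factorial_eq_one.mpr (by omega), Nat.dvd_one, ← Nat.card_congr e2,
            card_eq_one] at h5
          exact hQ h5
        · rw [← MulAction.index_stabilizer]; exact index_dvd_card _
        · rw [← Nat.card_eq_fintype_card]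
          exact (MulAction.IsBlock.orbit_of_normal x).ncard_dvd_card (MulAction.nonempty_orbit x)
        · rw [Nat.card_congr e2]
          exact (ih _ hlt _ e _ (nil_range _)).1
      obtain ⟨a1, a2, a3, a4⟩ := key _ inferInstance hP i1
      obtain ⟨b1, b2, b3, b4⟩ := key _ inferInstance hR i2
      have hc' := (hcop.coprime_dvd_left a2).coprime_dvd_right b2
      have hle := Nat.le_of_dvd hpos (hc'.mul_dvd_of_dvd_of_dvd a3 b3)
      have := (Nat.mul_le_mul (a4 (by nlinarith)) (b4 (by nlinarith))).trans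
        (trans_le a1 b1 hc' hle)
      rw [← hcard] at this
      exact ⟨this.trans (E_le_F _), fun _ => this⟩
    · have h4 : 1 ≤ Fintype.card {y // ¬ y ∈ MulAction.orbit N x} := by
        obtain ⟨y, hy⟩ := not_forall.mp htr
        exact Fintype.card_pos_iff.mpr ⟨⟨y, hy⟩⟩
      obtain ⟨a1, a2⟩ := ih _ (by omega) _ rfl (res (inv_orbit N x)).range (nil_range _)
      obtain ⟨b1, b2⟩ := ih _ (by omega) _ rfl (res (inv_orbit N x).not).range (nil_range _)
      have h5 := (Nat.mul_le_mul a1 b1).trans (F_super _ _)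
      rw [h3] at h5
      refine ⟨(card_le_mul (inv_orbit N x)).trans h5, fun hE => ?_⟩
      rcases split_even (inv_orbit N x) hE with ⟨e1, e2⟩ | h
      · rw [← h3]
        exact (card_le_mul (inv_orbit N x)).trans
          ((Nat.mul_le_mul (a2 e1) (b2 e2)).trans (E_super _ _))
      · have := F_le_two_E (Fintype.card α)
        omega

theorem card_sylow_perm (n : ℕ) (P : Sylow 2 (Perm (Fin n))) : Nat.card P = 2 ^ v n := by
  rw [P.card_eq_multiplicity, Nat.card_perm, Nat.card_eq_fintype_card, Fintype.card_fin,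
    Nat.factorization_def _ Nat.prime_two]; rfl

theorem card_sylow_alt {n : ℕ} (h : 2 ≤ n) (P : Sylow 2 (alternatingGroup (Fin n))) :
    2 * Nat.card P = 2 ^ v n := by
  have h1 := two_mul_card_alt (α := Fin n) (by simpa using h)
  rw [Fintype.card_fin] at h1
  rw [P.card_eq_multiplicity, Nat.factorization_def _ Nat.prime_two, v, ← h1,
    padicValNat.mul two_ne_zero Nat.card_pos.ne', padicValNat_self, pow_add, pow_one]

section Abstract

variable {G : Type*} [Group G] [Finite G] {e : ℕ}

theorem nil_struct {N : Subgroup G} [Group.IsNilpotent N] (hN : Nat.card N = 3 * 2 ^ e) {c : G}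
    (hc : c ∈ N) (h3 : orderOf c = 3) :
    ∃ P : Subgroup G, Nat.card P = 2 ^ e ∧ P ≤ centralizer {c} ∧ N = P ⊔ zpowers c := by
  obtain ⟨K, hK⟩ := Sylow.exists_subgroup_card_pow_prime (G := N) 2 (n := e)
    (hN ▸ dvd_mul_left _ _)
  have hP : Nat.card (K.map N.subtype) = 2 ^ e := (card_map_of_injective N.subtype_injective).trans hK
  have hz : Nat.card (zpowers c) = 3 := (Nat.card_zpowers c).trans h3
  have hcop : (Nat.card (K.map N.subtype)).Coprime (Nat.card (zpowers c)) := by
    rw [hP, hz]; exact Nat.Coprime.pow_left _ (by norm_num)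
  have h1 := Solv.le_centralizer_of_coprime_of_isNilpotent (map_subtype_le K)
    (zpowers_le.mpr hc) hcop
  refine ⟨_, hP, fun x hx y hy => h1 hx y (by rw [hy]; exact mem_zpowers c), ?_⟩
  refine (eq_of_le_of_card_ge (sup_le (map_subtype_le K) (zpowers_le.mpr hc)) ?_).symm
  rw [Solv.card_sup_of_coprime ((le_centralizer_iff.mp h1).trans (centralizer_le_normalizer _))
    hcop, hP, hz, hN, mul_comm]

theorem sylow_of_max (hmax : ∀ N : Subgroup G, Group.IsNilpotent N → Nat.card N ≤ 3 * 2 ^ e)
    {c : G} (h3 : orderOf c = 3) {P : Subgroup G} (hP : Nat.card P = 2 ^ e)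
    (hle : P ≤ centralizer {c}) :
    ∃ Q : Sylow 2 (centralizer ({c} : Set G)),
      P = (Q : Subgroup (centralizer ({c} : Set G))).map (centralizer {c}).subtype := by
  obtain ⟨Q, hQ⟩ := ((IsPGroup.of_card hP).comap_subtype (K := centralizer {c})).exists_le_sylow
  refine ⟨Q, eq_of_le_of_card_ge (fun x hx => ⟨⟨x, hle hx⟩, hQ hx, rfl⟩) ?_⟩
  set R := (Q : Subgroup (centralizer ({c} : Set G))).map (centralizer {c}).subtype with hR
  have hRp : IsPGroup 2 R := Q.isPGroup'.map _
  have hRc : R ≤ centralizer {c} := map_subtype_le _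
  have hcomm : ∀ (x : R) (y : zpowers c), Commute (R.subtype x) ((zpowers c).subtype y) := by
    rintro x ⟨_, k, rfl⟩
    exact (show Commute (x : G) c from (hRc x.2 c rfl).symm).zpow_right k
  have hnil : Group.IsNilpotent (R.subtype.noncommCoprod (zpowers c).subtype hcomm).range := by
    have := hRp.isNilpotent
    have : Group.IsNilpotent (zpowers c) := by
      let := IsCyclic.commGroup (α := zpowers c)
      infer_instance
    exact nil_range _
  rw [MonoidHom.noncommCoprod_range, range_subtype, range_subtype] at hnil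
  have h1 := hmax _ hnil
  obtain ⟨a, ha⟩ := IsPGroup.iff_card.mp hRp
  have hz : Nat.card (zpowers c) = 3 := (Nat.card_zpowers c).trans h3
  rw [Solv.card_sup_of_coprime (fun y hy => centralizer_le_normalizer _
    fun x hx => (hcomm ⟨x, hx⟩ ⟨y, hy⟩).eq) (by
      rw [ha, hz]; exact Nat.Coprime.pow_left _ (by norm_num)), hz] at h1
  omega

theorem conj_of_max (hmax : ∀ N : Subgroup G, Group.IsNilpotent N → Nat.card N ≤ 3 * 2 ^ e)
    (hconj : ∀ c d : G, orderOf c = 3 → orderOf d = 3 → 2 ^ e ∣ Nat.card (centralizer ({c} : Set G))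
      → 2 ^ e ∣ Nat.card (centralizer ({d} : Set G)) → IsConj c d)
    (N₁ N₂ : Subgroup G) (h₁ : Group.IsNilpotent N₁) (h₂ : Group.IsNilpotent N₂)
    (c₁ : Nat.card N₁ = 3 * 2 ^ e) (c₂ : Nat.card N₂ = 3 * 2 ^ e) :
    ∃ g : G, N₂ = N₁.map (MulAut.conj g).toMonoidHom := by
  have ex : ∀ N : Subgroup G, Group.IsNilpotent N → Nat.card N = 3 * 2 ^ e →
      ∃ c ∈ N, orderOf c = 3 ∧ 2 ^ e ∣ Nat.card (centralizer ({c} : Set G)) := by
    intro N _ hN
    obtain ⟨c, hc⟩ := exists_prime_orderOf_dvd_card' (G := N) 3 (hN ▸ dvd_mul_right _ _)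
    have hc' : orderOf (c : G) = 3 := by rw [orderOf_coe, hc]
    obtain ⟨P, hP, hle, -⟩ := nil_struct hN c.2 hc'
    exact ⟨c, c.2, hc', hP ▸ card_dvd_of_le hle⟩
  obtain ⟨c, hc, oc, dc⟩ := ex N₁ h₁ c₁
  obtain ⟨d, hd, od, dd⟩ := ex N₂ h₂ c₂
  obtain ⟨g, hg⟩ := isConj_iff.mp (hconj c d oc od dc dd)
  have := Solv.isNilpotent_map (MulAut.conj g).toMonoidHom N₁
  obtain ⟨P₁, hP₁, l₁, e₁⟩ := nil_struct (N := N₁.map (MulAut.conj g).toMonoidHom) (e := e)
    ((card_map_of_injective (MulAut.conj g).injective).trans c₁) ⟨c, hc, hg⟩ od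
  obtain ⟨P₂, hP₂, l₂, e₂⟩ := nil_struct c₂ hd od
  obtain ⟨Q₁, rfl⟩ := sylow_of_max hmax od hP₁ l₁
  obtain ⟨Q₂, rfl⟩ := sylow_of_max hmax od hP₂ l₂
  obtain ⟨h, rfl⟩ := MulAction.exists_smul_eq (centralizer ({d} : Set G)) Q₁ Q₂
  refine ⟨h * g, ?_⟩
  have e3 : N₁.map (MulAut.conj ((h : G) * g)).toMonoidHom =
      (N₁.map (MulAut.conj g).toMonoidHom).map (MulAut.conj (h : G)).toMonoidHom := by
    rw [map_map]; congr 1; ext x; simp [mul_assoc]
  rw [e3, e₁, e₂, Subgroup.map_sup, MonoidHom.map_zpowers]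
  congr 1
  · ext x
    constructor
    · rintro ⟨_, ⟨a, ha, rfl⟩, rfl⟩
      exact ⟨_, ⟨a, ha, rfl⟩, rfl⟩
    · rintro ⟨_, ⟨a, ha, rfl⟩, rfl⟩
      exact ⟨_, ⟨a, ha, rfl⟩, rfl⟩
  · congr 1
    show d = h * d * (h : G)⁻¹
    rw [← h.2 d rfl, mul_inv_cancel_right]

end Abstract

theorem isThreeCycle_of_dvd {n : ℕ} (hn : n % 4 = 3) {c : Perm (Fin n)} (h3 : orderOf c = 3)
    {e : ℕ} (he : v (n - 3) ≤ e + 1) (hd : 2 ^ e ∣ Nat.card (centralizer ({c} : Set (Perm (Fin n))))) :
    c.IsThreeCycle := by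
  obtain ⟨j, hj⟩ := cycleType_prime_order (σ := c) (h3 ▸ Nat.prime_three)
  rw [h3] at hj
  rcases j with _ | j
  · exact hj
  exfalso
  have hs := c.sum_cycleType_le
  rw [nat_card_centralizer, hj] at hd
  rw [hj] at hs
  simp only [Multiset.sum_replicate, Multiset.prod_replicate, Multiset.toFinset_replicate,
    Fintype.card_fin, smul_eq_mul, Nat.add_eq_zero_iff, one_ne_zero, and_false, if_false,
    Finset.prod_singleton, Multiset.count_replicate_self] at hd hs
  have h1 := (padicValNat_dvd_iff_le (by positivity)).mp hd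
  rw [padicValNat.mul (by positivity) (by positivity), padicValNat.mul (by positivity)
    (by positivity), padicValNat.pow, padicValNat.eq_zero_of_not_dvd (by norm_num : ¬ 2 ∣ 3)] at h1
  have h2 := v_lt hn (j := j + 1 + 1) (by omega) (by omega)
  rw [mul_comm 3] at h2
  unfold v at h2 he
  omega

/-- The 3-cycle group. -/
def z3 : Multiplicative (ZMod 3) →* Perm (Fin 3) where
  toFun k := finRotate 3 ^ (Multiplicative.toAdd k).val
  map_one' := rfl
  map_mul' := by decide

theorem z3_injective : Function.Injective z3 := by decide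

theorem sign_z3 : ∀ k, sign (z3 k) = 1 := by decide

theorem exists_prod {m : ℕ} {H : Type*} [Group H] (φ : H →* Perm (Fin m))
    (hφ : Function.Injective φ) :
    ∃ ψ : H × Multiplicative (ZMod 3) →* Perm (Fin (m + 3)), Function.Injective ψ ∧
      ∀ x, sign (ψ x) = sign (φ x.1) :=
  ⟨(sumHom m 3).comp (φ.prodMap z3), (sumHom_injective m 3).comp (hφ.prodMap z3_injective),
    fun x => by rw [MonoidHom.comp_apply, sign_sumHom]; exact (congrArg _ (sign_z3 _)).trans (mul_one _)⟩

theorem range_facts {G H : Type*} [Group G] [Group H] [Finite H] (hH : IsPGroup 2 H)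
    (ψ : H × Multiplicative (ZMod 3) →* G) (hψ : Function.Injective ψ) :
    Group.IsNilpotent ψ.range ∧ Nat.card ψ.range = 3 * Nat.card H ∧
      Nonempty (ψ.range ≃* H × Multiplicative (ZMod 3)) := by
  have := hH.isNilpotent
  refine ⟨nil_range ψ, ?_, ⟨(MonoidHom.ofInjective hψ).symm⟩⟩
  rw [← Nat.card_congr (MonoidHom.ofInjective hψ).toEquiv, Nat.card_prod, mul_comm]
  simp

end Cfsg.Agent.SymN
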